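import Groth.Prelude.Def_Dual3
import Groth.Agent.Flat2D.CMCharts
import Groth.Agent.Ega4C.FibreTower
import Groth.Agent.LoccohB.GorFibreIff
import Groth.Agent.LoccohA.GorBC

/-!
# Gorenstein at a point, in affine charts

* `isGorensteinAt_iff_chart`: for `f` flat and affine charts, `f` is Gorenstein at `x` iff the ring `A_q / pA_q` is.
* `gorenstein_iff_exists_away`: for `ω ∈ D(A)` bounded with finite cohomology whose base change to the fibre rings is
  dualizing, `A_q / pA_q` is Gorenstein iff `ω ⊗ A_f ≅ A_f[n]` for some `f ∉ q`.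
-/

set_option autoImplicit false
universe u
open CategoryTheory CategoryTheory.Limits AlgebraicGeometry IsLocalRing
open scoped TensorProduct
attribute [local instance] HasDerivedCategory.standard

namespace Groth.Agent.Dual.H320.GorChart

open Groth.Agent.LoccohB Groth.Agent.LoccohB.DBase Groth.Agent.LoccohB.GorNak
  Groth.Agent.LoccohB.LBC Groth.Agent.Ega4C Groth.Agent.Flat2D

/-- Gorenstein at a point, in affine charts. -/
theorem isGorensteinAt_iff_chart {X Y : Scheme.{u}} (f : X ⟶ Y) [Flat f] {V : Y.Opens}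
    (hV : IsAffineOpen V) {U : X.Opens} (hU : IsAffineOpen U) (e : U ≤ f ⁻¹ᵁ V) {x : X} (hx : x ∈ U) :
    letI := (f.appLE V U e).hom.toAlgebra
    Dual3.IsGorensteinAt f x ↔ LocCoh.IsGorensteinLocalRing
      (EGA4.FibLocRing Γ(Y, V) Γ(X, U) (hU.primeIdealOf ⟨x, hx⟩).asIdeal) := by
  let := (f.appLE V U e).hom.toAlgebra
  obtain ⟨e1⟩ := CMCharts.nonempty_quot_equiv f hV hU e hx
  obtain ⟨e2⟩ := FiberStalk.nonempty_asFiber_stalkEquiv' f x
  have h1 : Dual3.IsGorensteinAt f x ↔
      LocCoh.IsGorensteinLocalRing ((f.fiber (f x)).presheaf.stalk (f.asFiber x)) :=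
    and_iff_right (Flat.stalkMap f x)
  rw [h1]
  exact Groth.Agent.LoccohA.GorBC.isGorensteinLocalRing_iff_of_ringEquiv (e2.symm.trans e1)

section

variable {R A : Type u} [CommRing R] [CommRing A] [Algebra R A]

theorem isGorensteinLocalRing_fibLocRing_congr {q q' : Ideal A} [q.IsPrime] [q'.IsPrime] (h : q = q') :
    LocCoh.IsGorensteinLocalRing (EGA4.FibLocRing R A q) ↔
      LocCoh.IsGorensteinLocalRing (EGA4.FibLocRing R A q') := by
  subst h
  rfl

/-- The local ring of the fibre is Gorenstein iff `ω` is a shift of `A` near `q`. -/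
theorem gorenstein_iff_exists_away [IsNoetherianRing A] (ω : Dual.D A) (a b : ℤ) [ω.IsGE a] [ω.IsLE b]
    (hfin : ∀ i, Module.Finite A (Dual.HD A ω i))
    (hk : ∀ (p : Ideal R) [p.IsPrime]
      [DRing.HasLBaseChange (Algebra.TensorProduct.includeRight : A →ₐ[R] p.Fiber A).toRingHom],
      Dual.IsDualizing (p.Fiber A) ((DRing.LBaseChange
        (Algebra.TensorProduct.includeRight : A →ₐ[R] p.Fiber A).toRingHom).obj ω))
    (q : Ideal A) [q.IsPrime] (hfl : ∀ f : A, (algebraMap A (Localization.Away f)).Flat) :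
    LocCoh.IsGorensteinLocalRing (EGA4.FibLocRing R A q) ↔
      ∃ (f : A) (_ : f ∉ q) (m : ℤ), Nonempty ((FlatLBC.flatBC (algebraMap A (Localization.Away f))
        (hfl f)).obj ω ≅ (Dual.inD (Localization.Away f) (Localization.Away f))⟦m⟧) := by
  obtain ⟨Q, hQ, hQq⟩ := FibreTower.exists_prime_fibre (q.comap (algebraMap R A)) q rfl
  set p := q.comap (algebraMap R A) with hp
  have hNC : IsNoetherianRing (p.Fiber A) := FibreTower.isNoetherianRing_fiber p
  have := hasLBaseChange (Algebra.TensorProduct.includeRight : A →ₐ[R] p.Fiber A).toRingHom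
  have h1 : LocCoh.IsGorensteinLocalRing (EGA4.FibLocRing R A q) ↔
      LocCoh.IsGorensteinLocalRing (Localization.AtPrime Q) :=
    (isGorensteinLocalRing_fibLocRing_congr hQq).symm.trans
      (Groth.Agent.LoccohA.GorBC.isGorensteinLocalRing_iff_of_ringEquiv
        (FibreTower.locFibreEquiv p Q)).symm
  rw [h1]
  constructor
  · intro h2
    obtain ⟨f, hf, m, ⟨e⟩⟩ := GorFibreIff.exists_iso_of_isGorensteinLocalRing
      (Algebra.TensorProduct.includeRight : A →ₐ[R] p.Fiber A).toRingHom ω a b hfin Q (hk p)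
      (GorDesc.localRingHom_fiber_surjective p Q _ rfl) h2
    refine ⟨f, hQq ▸ hf, -m, ⟨?_⟩⟩
    exact e ≪≫ (((DerivedCategory.singleFunctors (ModuleCat.{u} (Localization.Away f))).shiftIso (-m) m 0
        (by simp)).app _).symm
  · rintro ⟨f, hf, m, ⟨e⟩⟩
    have := hasLBaseChange (algebraMap A (Localization.Away f))
    refine GorFibreIff.isGorensteinLocalRing_of_iso
      (Algebra.TensorProduct.includeRight : A →ₐ[R] p.Fiber A).toRingHom ω Q
      (hk p) f (fun h => hf (hQq ▸ h)) (-m) ?_
    exact (FlatLBC.LBaseChangeIso _ (hfl f)).app ω ≪≫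
      e ≪≫ ((DerivedCategory.singleFunctors (ModuleCat.{u} (Localization.Away f))).shiftIso m (-m) 0
        (by simp)).app _

end

end Groth.Agent.Dual.H320.GorChart
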