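import Groth.Agent.Dual.H320.InvPt
import Groth.Agent.Dual.H320.GorChart
import Groth.Agent.S1801
import Groth.Agent.LoccohB.RAdj
import Mathlib.AlgebraicGeometry.Noetherian
import Mathlib.AlgebraicGeometry.Morphisms.FiniteType
import Mathlib.AlgebraicGeometry.Morphisms.Flat

/-!
# Gorenstein at a point and the relative dualizing complex

`isGorensteinAt_iff_invAt`: `f : X ⟶ Y` flat, locally of finite type, `Y` locally Noetherian, `K ∈ D(O_X)` which over affine
charts `Spec A ⟶ X`, `Spec R ⟶ Y` is `(φ^! R)~`: `f` is Gorenstein at `x` iff `K` is a shift of the structure sheaf near `x`.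
-/

set_option autoImplicit false
universe u
open CategoryTheory CategoryTheory.Limits AlgebraicGeometry IsLocalRing
open scoped TensorProduct
attribute [local instance] HasDerivedCategory.standard

namespace Groth.Agent.Dual.H320.GorShriek

open Groth.Agent.LoccohB Groth.Agent.LoccohB.DBase Groth.Agent.LoccohB.LBC Groth.Agent.PerfA.Restrict
open InvPt GorChart

/-- The ring-level statement, for a presentation. -/
theorem gorenstein_iff_shriekVia {R A : Type u} [CommRing R] [CommRing A] [IsNoetherianRing R]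
    [IsNoetherianRing A] [Algebra R A] [Module.Flat R A] (n : ℕ)
    (ψ : MvPolynomial (Fin n) R →ₐ[R] A) (hψ : Function.Surjective ψ)
    [DRing.HasLBaseChange (algebraMap R (MvPolynomial (Fin n) R))]
    (Rψ : Dual.D (MvPolynomial (Fin n) R) ⥤ Dual.D A) (adj : DRing.restrictD ψ.toRingHom ⊣ Rψ)
    (q : Ideal A) [q.IsPrime] (hfl : ∀ f : A, (algebraMap A (Localization.Away f)).Flat) :
    LocCoh.IsGorensteinLocalRing (EGA4.FibLocRing R A q) ↔
      ∃ (f : A) (_ : f ∉ q) (m : ℤ), Nonempty ((FlatLBC.flatBC (algebraMap A (Localization.Away f))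
        (hfl f)).obj (Dual2.shriekVia n Rψ (Dual.inD R R)) ≅
          (Dual.inD (Localization.Away f) (Localization.Away f))⟦m⟧) := by
  obtain ⟨⟨a, b, hab⟩, hfin, -, -, hk⟩ := S1801.result R A n ψ hψ Rψ adj
  have hGE : (Dual2.shriekVia n Rψ (Dual.inD R R)).IsGE a := by
    rw [DerivedCategory.isGE_iff]
    exact fun i hi => ModuleCat.isZero_iff_subsingleton.2 (hab i (Or.inl hi))
  have hLE : (Dual2.shriekVia n Rψ (Dual.inD R R)).IsLE b := by
    rw [DerivedCategory.isLE_iff]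
    exact fun i hi => ModuleCat.isZero_iff_subsingleton.2 (hab i (Or.inr hi))
  exact gorenstein_iff_exists_away _ a b hfin (fun p hp _ => hk p.ResidueField) q hfl

/-- Gorenstein at a point iff `K` is locally a shift of the structure sheaf, for `K` locally `(φ^! R)~`. -/
theorem isGorensteinAt_iff_invAt {X Y : Scheme.{u}} (f : X ⟶ Y) [Flat f] [LocallyOfFiniteType f]
    [IsLocallyNoetherian Y] (K : DCoh.D X)
    (hK : ∀ (V : Y.Opens) (_ : IsAffineOpen V) (U : X.Opens) (hU : IsAffineOpen U) (e : U ≤ f ⁻¹ᵁ V),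
      letI := (f.appLE V U e).hom.toAlgebra
      ∀ (n : ℕ) (ψ : MvPolynomial (Fin n) Γ(Y, V) →ₐ[Γ(Y, V)] Γ(X, U)) (_ : Function.Surjective ψ)
        [DRing.HasLBaseChange (algebraMap Γ(Y, V) (MvPolynomial (Fin n) Γ(Y, V)))]
        [PreservesFiniteLimits (tilde.functor (CommRingCat.of Γ(X, U)))]
        (Rψ : Dual.D (MvPolynomial (Fin n) Γ(Y, V)) ⥤ Dual.D Γ(X, U))
        (_ : DRing.restrictD ψ.toRingHom ⊣ Rψ),
        Nonempty ((restrictD (X := Spec (CommRingCat.of Γ(X, U))) hU.fromSpec).obj K ≅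
          (DCoh.tildeD (CommRingCat.of Γ(X, U))).obj
            (Dual2.shriekVia n Rψ (Dual.inD Γ(Y, V) Γ(Y, V))))) (x : X) :
    Dual3.IsGorensteinAt f x ↔ InvAt K x := by
  obtain ⟨_, ⟨V, hV, rfl⟩, hxV, -⟩ := Y.isBasis_affineOpens.exists_subset_of_mem_open (Set.mem_univ (f x)) isOpen_univ
  obtain ⟨_, ⟨U, hU, rfl⟩, hxU, hUV⟩ := X.isBasis_affineOpens.exists_subset_of_mem_open
    (show x ∈ ((f ⁻¹ᵁ V : X.Opens) : Set X) from hxV) (f ⁻¹ᵁ V).isOpen
  have e : U ≤ f ⁻¹ᵁ V := hUV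
  let alg := (f.appLE V U e).hom.toAlgebra
  have hfl : Module.Flat Γ(Y, V) Γ(X, U) := f.flat_appLE hV hU e
  have hft : Algebra.FiniteType Γ(Y, V) Γ(X, U) := LocallyOfFiniteType.finiteType_appLE f hV hU e
  have hN : IsNoetherianRing Γ(Y, V) := IsLocallyNoetherian.component_noetherian ⟨V, hV⟩
  have hN' : IsNoetherianRing Γ(X, U) := Algebra.FiniteType.isNoetherianRing Γ(Y, V) Γ(X, U)
  obtain ⟨n, ψ, hψ⟩ := Algebra.FiniteType.iff_quotient_mvPolynomial''.1 hft
  have := hasLBaseChange (algebraMap Γ(Y, V) (MvPolynomial (Fin n) Γ(Y, V)))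
  have : PreservesFiniteLimits (tilde.functor (CommRingCat.of Γ(X, U))) :=
    Groth.Agent.PerfB.TildeExact.preservesFiniteLimits_tilde _
  obtain ⟨E⟩ := hK V hV U hU e n ψ hψ (RAdj.RCoext ψ.toRingHom) (RAdj.coextAdj ψ.toRingHom)
  have h1 := isGorensteinAt_iff_chart f hV hU e hxU
  have hfl' : ∀ g : Γ(X, U), (algebraMap Γ(X, U) (Localization.Away g)).Flat := GorSpread.flat_away
  have h2 := gorenstein_iff_shriekVia n ψ hψ (RAdj.RCoext ψ.toRingHom) (RAdj.coextAdj ψ.toRingHom)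
    (hU.primeIdealOf ⟨x, hxU⟩).asIdeal hfl'
  let j : Spec (CommRingCat.of Γ(X, U)) ⟶ X := hU.fromSpec
  have hj : IsOpenImmersion j := hU.isOpenImmersion_fromSpec
  have h3 := invAt_iff_chart (A := Γ(X, U)) K j _ E (hU.primeIdealOf ⟨x, hxU⟩) hfl'
  have h4 : j (hU.primeIdealOf ⟨x, hxU⟩) = x := hU.fromSpec_primeIdealOf ⟨x, hxU⟩
  rw [h4] at h3
  exact h1.trans (h2.trans h3.symm)

end Groth.Agent.Dual.H320.GorShriek
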