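import Groth.Prelude.Def_Dual3
import Groth.Agent.LoccohB.GoodSch
import Groth.Agent.PerfB.TildeTorsion
import Groth.Agent.PerfB.TildeExact

/-!
# Objects of `D(O_X)` which are a shift of the structure sheaf near a point

* `InvAt K x`: on some open neighbourhood of `x` (the source of an open immersion), `K` is a shift of the
  structure sheaf.
* `invAt_iff`: `InvAt K x` iff `x` has an open neighbourhood `U` with `Dual3.IsInvertibleD (K|_U)`.
* `invAt_iff_chart`: `InvAt K (j q)` for an open immersion `j : Spec A ⟶ X` and a model `K|_{Spec A} ≅ ω~`, in terms of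
  `ω ⊗_A A_f`.
-/

set_option autoImplicit false
universe u
open CategoryTheory CategoryTheory.Limits AlgebraicGeometry
attribute [local instance] HasDerivedCategory.standard

namespace Groth.Agent.Dual.H320.InvPt

open Groth.Agent.LoccohB.FlatLBC Groth.Agent.LoccohB.GoodSch
open Groth.Agent.PerfA.Restrict Groth.Agent.PerfA.PerfLocal

variable {X Y : Scheme.{u}}

/-- `K` is a shift of the structure sheaf near `x`. -/
def InvAt (K : DCoh.D X) (x : X) : Prop :=
  ∃ (U : Scheme.{u}) (j : U ⟶ X) (_ : IsOpenImmersion j) (y : U) (n : ℤ), j y = x ∧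
    Nonempty ((restrictD j).obj K ≅ (DCoh.inD U (Coh.structureModule U))⟦n⟧)

/-- `O_Y[n]` restricts to `O_X[n]`. -/
noncomputable def restrictO (f : X ⟶ Y) [IsOpenImmersion f] (n : ℤ) :
    (restrictD f).obj ((DCoh.inD Y (Coh.structureModule Y))⟦n⟧) ≅
      (DCoh.inD X (Coh.structureModule X))⟦n⟧ :=
  restrictDShift f _ n ≪≫ (shiftFunctor _ n).mapIso
    (restrictInD f (Coh.structureModule Y) ≪≫
      (DerivedCategory.singleFunctor X.Modules 0).mapIso (Scheme.Modules.restrictUnitIso f))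

/-- Restricting a trivialisation. -/
noncomputable def restrictTriv {U V : Scheme.{u}} (j : U ⟶ X) [IsOpenImmersion j] (k : V ⟶ X)
    [IsOpenImmersion k] (g : V ⟶ U) [IsOpenImmersion g] (h : g ≫ j = k) (K : DCoh.D X) (n : ℤ)
    (e : (restrictD j).obj K ≅ (DCoh.inD U (Coh.structureModule U))⟦n⟧) :
    (restrictD k).obj K ≅ (DCoh.inD V (Coh.structureModule V))⟦n⟧ :=
  (restrictDCongr h.symm).app K ≪≫ ((restrictDComp g j).app K).symm ≪≫
    (restrictD g).mapIso e ≪≫ restrictO g n

theorem isInvertibleD_of_forall {U : Scheme.{u}} (L : DCoh.D U)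
    [∀ (V : Scheme.{u}) (j : V ⟶ U) [IsOpenImmersion j],
      PreservesFiniteLimits (Scheme.Modules.restrictFunctor j)]
    (h : ∀ z : U, InvAt L z) : Dual3.IsInvertibleD L := by
  intro z
  obtain ⟨V, j, hj, y, n, hy, ⟨e⟩⟩ := h z
  refine ⟨j.opensRange, n, ⟨y, hy⟩, ⟨?_⟩⟩
  exact restrictTriv j j.opensRange.ι j.isoOpensRange.inv (by simp) L n e

theorem InvAt.of_isInvertibleD {U : Scheme.{u}} {L : DCoh.D U}
    [∀ (V : Scheme.{u}) (j : V ⟶ U) [IsOpenImmersion j],
      PreservesFiniteLimits (Scheme.Modules.restrictFunctor j)]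
    (h : Dual3.IsInvertibleD L) (z : U) : InvAt L z := by
  obtain ⟨V, n, hz, ⟨e⟩⟩ := h z
  exact ⟨V, V.ι, inferInstance, ⟨z, hz⟩, n, rfl, ⟨e⟩⟩

theorem InvAt.of_restrict {U : Scheme.{u}} (j : U ⟶ X) [IsOpenImmersion j] {K : DCoh.D X} {z : U}
    (h : InvAt ((restrictD j).obj K) z) : InvAt K (j z) := by
  obtain ⟨V, k, hk, y, n, hy, ⟨e⟩⟩ := h
  refine ⟨V, k ≫ j, inferInstance, y, n, ?_, ⟨((restrictDComp k j).app K).symm ≪≫ e⟩⟩
  rw [Scheme.Hom.comp_apply, hy]

theorem InvAt.restrict {U : Scheme.{u}} (j : U ⟶ X) [IsOpenImmersion j] {K : DCoh.D X} {z : U}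
    (h : InvAt K (j z)) : InvAt ((restrictD j).obj K) z := by
  obtain ⟨V, k, hk, y, n, hy, ⟨e⟩⟩ := h
  obtain ⟨w, hw1, hw2⟩ := Scheme.Pullback.exists_preimage_pullback (f := k) (g := j) y z hy
  refine ⟨pullback k j, pullback.snd k j, inferInstance, w, n, hw2, ⟨?_⟩⟩
  exact (restrictDComp (pullback.snd k j) j).app K ≪≫
    restrictTriv k (pullback.snd k j ≫ j) (pullback.fst k j) pullback.condition K n e

/-- Being invertible near a point. -/
theorem invAt_iff (K : DCoh.D X) (x : X)
    [∀ (U V : Scheme.{u}) (j : U ⟶ V) [IsOpenImmersion j],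
      PreservesFiniteLimits (Scheme.Modules.restrictFunctor j)] :
    InvAt K x ↔ ∃ U : X.Opens, x ∈ U ∧ Dual3.IsInvertibleD ((DCoh.restrictD U.ι).obj K) := by
  constructor
  · rintro ⟨V, j, hj, y, n, hy, ⟨e⟩⟩
    refine ⟨j.opensRange, ⟨y, hy⟩, isInvertibleD_of_forall _ fun z => ?_⟩
    exact InvAt.restrict j.opensRange.ι ⟨V, j, hj, j.isoOpensRange.inv z, n, by
      rw [← Scheme.Hom.comp_apply]; simp, ⟨e⟩⟩
  · rintro ⟨U, hx, h⟩
    exact InvAt.of_restrict U.ι (InvAt.of_isInvertibleD h ⟨x, hx⟩)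

section Chart

/-- `(A[n])~ ≅ O[n]`. -/
noncomputable def tildeO (R : CommRingCat.{u}) [PreservesFiniteLimits (tilde.functor R)] (n : ℤ) :
    (DCoh.tildeD R).obj (((DerivedCategory.singleFunctor (ModuleCat.{u} R) 0).obj
      (ModuleCat.of R R))⟦n⟧) ≅
      (DCoh.inD (Spec (CommRingCat.of R)) (Coh.structureModule (Spec (CommRingCat.of R))))⟦n⟧ :=
  ((DCoh.tildeD R).commShiftIso n).app _ ≪≫
    (shiftFunctor _ n).mapIso (Groth.Agent.PerfB.TildeTorsion.unitIso R).symm

variable {A : Type u} [CommRing A]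

/-- `A → A_f` as a morphism. -/
noncomputable abbrev awayHom (f : A) : CommRingCat.of A ⟶ CommRingCat.of (Localization.Away f) :=
  CommRingCat.ofHom (algebraMap A (Localization.Away f))

/-- A basic open neighbourhood of a point of `Spec A` inside the preimage of the range of an open immersion. -/
theorem exists_away {V : Scheme.{u}} (j : Spec (CommRingCat.of A) ⟶ X) (k : V ⟶ X)
    [IsOpenImmersion k] (q : PrimeSpectrum A) (y : V) (hy : k y = j q) :
    ∃ (f : A) (_ : f ∉ q.asIdeal) (g : Spec (CommRingCat.of (Localization.Away f)) ⟶ V),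
      g ≫ k = Spec.map (awayHom f) ≫ j := by
  let W : TopologicalSpace.Opens (PrimeSpectrum A) := j ⁻¹ᵁ k.opensRange
  have hq : q ∈ W := ⟨y, hy⟩
  obtain ⟨_, ⟨f, rfl⟩, hf1, hf2⟩ :=
    PrimeSpectrum.isTopologicalBasis_basic_opens.exists_subset_of_mem_open hq W.2
  refine ⟨f, hf1, IsOpenImmersion.lift k (Spec.map (awayHom f) ≫ j) ?_, IsOpenImmersion.lift_fac _ _ _⟩
  rintro _ ⟨z, rfl⟩
  rw [Scheme.Hom.comp_apply]
  have h1 : (Spec.map (awayHom f)) z ∈ (PrimeSpectrum.basicOpen f : Set (PrimeSpectrum A)) := by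
    have h2 : (Spec.map (awayHom f)) z ∈ Set.range (PrimeSpectrum.comap (algebraMap A (Localization.Away f))) :=
      ⟨z, rfl⟩
    rwa [PrimeSpectrum.localization_away_comap_range (Localization.Away f) f] at h2
  exact hf2 h1

/-- Invertibility near a point, in an affine chart. -/
theorem invAt_iff_chart [PreservesFiniteLimits (tilde.functor (CommRingCat.of A))]
    (K : DCoh.D X) (j : Spec (CommRingCat.of A) ⟶ X) [IsOpenImmersion j] (ω : Dual.D A)
    (e : (restrictD j).obj K ≅ (DCoh.tildeD (CommRingCat.of A)).obj ω) (q : PrimeSpectrum A)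
    (hfl : ∀ f : A, (algebraMap A (Localization.Away f)).Flat) :
    InvAt K (j q) ↔ ∃ (f : A) (_ : f ∉ q.asIdeal) (n : ℤ),
      Nonempty ((flatBC (algebraMap A (Localization.Away f)) (hfl f)).obj ω ≅
        (Dual.inD (Localization.Away f) (Localization.Away f))⟦n⟧) := by
  constructor
  · rintro ⟨V, k, hk, y, n, hy, ⟨e'⟩⟩
    obtain ⟨f, hf, g, hg⟩ := exists_away j k q y hy
    refine ⟨f, hf, n, ?_⟩
    have : PreservesFiniteLimits (tilde.functor (CommRingCat.of (Localization.Away f))) :=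
      Groth.Agent.PerfB.TildeExact.preservesFiniteLimits_tilde _
    have hg1 : IsOpenImmersion (g ≫ k) := by
      rw [hg]
      infer_instance
    have hg2 : IsOpenImmersion g := IsOpenImmersion.of_comp g k
    have e1 := restrictTriv k (Spec.map (awayHom f) ≫ j) g hg K n e'
    exact nonempty_iso_of_tildeD (CommRingCat.of (Localization.Away f))
      ((restrictTilde (awayHom f) (hfl f) ω).symm ≪≫ (restrictD (Spec.map (awayHom f))).mapIso e.symm ≪≫
        (restrictDComp (Spec.map (awayHom f)) j).app K ≪≫ e1 ≪≫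
          (tildeO (CommRingCat.of (Localization.Away f)) n).symm)
  · rintro ⟨f, hf, n, ⟨e'⟩⟩
    have : PreservesFiniteLimits (tilde.functor (CommRingCat.of (Localization.Away f))) :=
      Groth.Agent.PerfB.TildeExact.preservesFiniteLimits_tilde _
    obtain ⟨z, hz⟩ : q ∈ Set.range (PrimeSpectrum.comap (algebraMap A (Localization.Away f))) := by
      rw [PrimeSpectrum.localization_away_comap_range (Localization.Away f) f]
      exact hf
    refine ⟨Spec (CommRingCat.of (Localization.Away f)), Spec.map (awayHom f) ≫ j, inferInstance, z, n,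
      (Scheme.Hom.comp_apply _ _ _).trans (congrArg j hz), ⟨?_⟩⟩
    · exact ((restrictDComp (Spec.map (awayHom f)) j).app K).symm ≪≫
        (restrictD (Spec.map (awayHom f))).mapIso e ≪≫ restrictTilde (awayHom f) (hfl f) ω ≪≫
        (DCoh.tildeD (CommRingCat.of (Localization.Away f))).mapIso e' ≪≫
          tildeO (CommRingCat.of (Localization.Away f)) n

end Chart

end Groth.Agent.Dual.H320.InvPt
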